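import Cfsg.Agent.H254.IF.Row11
import Cfsg.Agent.H63.IF.MinIdx

/-!
# S5719: the cells of the orthogonal groups in odd characteristic, dimension at least 11 (helper254)

`odd_ge` : dimension `2m + 1 ≥ 11`; `plus_ge`, `minus_ge` : dimension `2m ≥ 12`; `|A|` even.
(PHI, USE: helper786, helper989, helper237; step: helper276; end: helper198; minimal index: helper63.)
-/

set_option autoImplicit false

namespace Cfsg.Agent.H254.IF

open QuadraticMap Cfsg Cfsg.Agent.LieClassical.OrthCore Cfsg.Agent.LieClassical.OrthTrans Cfsg.Agent.H209.Fxy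
open Module (finrank)

theorem minThm : MinThm := fun _ _ _ _ _ _ _ _ h2 hQ h7 H hH => Cfsg.Agent.H63.IF.min_index h2 hQ h7 H hH

/-- **the row theorem** : dimension at least 11, `|A|` even -/
theorem rowThm : RowThm := row_of_min minThm

/-- dimensions 11, 13, 15, … -/
theorem odd_ge (F : Type) [Field F] [Fintype F] (m : ℕ) (ho : Odd (Fintype.card F)) (hm : 5 ≤ m)
    (hs : IsSimpleGroup (POmega F (quadFormOdd m F))) : KillE (POmega F (quadFormOdd m F)) :=
  odd_of rowThm F m ho hm hs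

/-- dimensions 12, 14, 16, … of plus type -/
theorem plus_ge (F : Type) [Field F] [Fintype F] (m : ℕ) (ho : Odd (Fintype.card F)) (hm : 6 ≤ m)
    (hs : IsSimpleGroup (POmega F (quadFormPlus m F))) : KillE (POmega F (quadFormPlus m F)) :=
  plus_of rowThm F m ho hm hs

/-- dimensions 12, 14, 16, … of minus type -/
theorem minus_ge (F : Type) [Field F] [Fintype F] (m : ℕ) (a b : F) (ho : Odd (Fintype.card F))
    (hm : 6 ≤ m) (hz : ∀ z₁ z₂ : F, z₁ ^ 2 + a * z₁ * z₂ + b * z₂ ^ 2 = 0 → z₁ = 0 ∧ z₂ = 0)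
    (hs : IsSimpleGroup (POmega F (quadFormMinus (m - 1) F a b))) :
    KillE (POmega F (quadFormMinus (m - 1) F a b)) :=
  minus_of rowThm F m a b ho hm hz hs

/-- `CellsO.odd_large` -/
theorem odd_large : ∀ (F : Type) [Field F] [Fintype F] (m : ℕ), Odd (Fintype.card F) → 7 ≤ m →
    IsSimpleGroup (POmega F (quadFormOdd m F)) → KillE (POmega F (quadFormOdd m F)) :=
  fun F _ _ m ho hm hs => odd_ge F m ho (by omega) hs

/-- `CellsO.plus_large` -/
theorem plus_large : ∀ (F : Type) [Field F] [Fintype F] (m : ℕ), Odd (Fintype.card F) → 8 ≤ m →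
    IsSimpleGroup (POmega F (quadFormPlus m F)) → KillE (POmega F (quadFormPlus m F)) :=
  fun F _ _ m ho hm hs => plus_ge F m ho (by omega) hs

/-- `CellsO.minus_large` -/
theorem minus_large : ∀ (F : Type) [Field F] [Fintype F] (m : ℕ) (a b : F), Odd (Fintype.card F) → 8 ≤ m →
    (∀ z₁ z₂ : F, z₁ ^ 2 + a * z₁ * z₂ + b * z₂ ^ 2 = 0 → z₁ = 0 ∧ z₂ = 0) →
    IsSimpleGroup (POmega F (quadFormMinus (m - 1) F a b)) → KillE (POmega F (quadFormMinus (m - 1) F a b)) :=
  fun F _ _ m a b ho hm hz hs => minus_ge F m a b ho (by omega) hz hs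

end Cfsg.Agent.H254.IF
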