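import Cfsg.Agent.H254.IF.Rows
import Cfsg.Agent.H276.IF.Kill
import Cfsg.Agent.H786.IF.Use

/-!
# S5719: orthogonal groups in odd characteristic, dimension at least 11: the row theorem (helper254)

`row_of_min` : `RowThm` from the minimal index theorem in `E Q` (USE: helper786, step: helper276, end: helper198).
-/

set_option autoImplicit false

namespace Cfsg.Agent.H254.IF

open QuadraticMap Cfsg Cfsg.Agent.LieClassical.OrthCore Cfsg.Agent.LieClassical.OrthTrans Cfsg.Agent.H209.Fxy
open Module (finrank)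

/-- the minimal index theorem in `E Q` (interface) -/
def MinThm : Prop := ∀ (F V : Type) [Field F] [Finite F] [AddCommGroup V] [Module F V] [FiniteDimensional F V]
  (Q : QuadraticForm F V), (2 : F) ≠ 0 → Nondeg Q → 7 ≤ finrank F V → ∀ H : Subgroup ↥(E Q), H ≠ ⊤ →
    Nat.card F ^ (finrank F V - 2) ≤ H.index

/-- **the row theorem from the minimal index theorem** -/
theorem row_of_min (hmin : MinThm) : RowThm := by
  intro F V _ _ _ _ _ Q h2 hQ hN T _ _ _ π hπ hk hna A Γ hA hev
  obtain ⟨t, htA, hto⟩ := hev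
  obtain ⟨g, rfl⟩ := hπ t
  refine Cfsg.Agent.H276.IF.kill_of h2 hQ hN hna hA π hπ hk
    (Cfsg.Agent.H786.IF.use_fund h2 hQ hN hA hna π hπ hk htA hto) ?_
  intro D hD h7 H hH
  exact hmin F D (Cfsg.Agent.H112.Row2.OrthExt.QU Q D) h2 (fun x hx => by
    apply Subtype.ext
    exact hD x x.2 fun y hy => hx ⟨y, hy⟩) h7 H hH

end Cfsg.Agent.H254.IF
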