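import Cfsg.Agent.H75.Transfer
import Cfsg.Agent.H209.IF.Kill
import Cfsg.Agent.AutOrth.Gen
import Cfsg.Agent.LieClassical.OrthFinite

/-!
# S5719: the orthogonal rows in odd characteristic, dimension at least 11, from the row theorem in `E Q` (helper254)

`RowThm` : no counterexample with `A` of even order in a simple quotient of `E Q` by scalars, `dim V ≥ 11`.
`odd_of`, `plus_of`, `minus_of` : the cells for the models.
-/

set_option autoImplicit false
set_option linter.unusedSectionVars false

namespace Cfsg.Agent.H254.IF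

open QuadraticMap Cfsg Cfsg.Agent.LieClassical.OrthCore Cfsg.Agent.LieClassical.OrthTrans
  Cfsg.Agent.LieClassical.OrthFinite Cfsg.Agent.LieClassical.OrthForms Cfsg.Agent.H209.Fxy
  Cfsg.Agent.H75.OrthIdx
open Module (finrank)

/-- **the row theorem** (interface) -/
def RowThm : Prop := ∀ (F V : Type) [Field F] [Finite F] [AddCommGroup V] [Module F V] [FiniteDimensional F V]
  (Q : QuadraticForm F V), (2 : F) ≠ 0 → Nondeg Q → 11 ≤ finrank F V →
  ∀ (T : Type) [Group T] [Finite T] [IsSimpleGroup T] (π : ↥(E Q) →* T), Function.Surjective π →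
    (∀ g : ↥(E Q), π g = 1 → ∃ c : F, ∀ v, (g : V ≃ₗ[F] V) v = c • v) → (∃ a b : T, a * b ≠ b * a) → KillE T

/-- a simple quotient of a perfect group is not commutative -/
theorem not_comm_of_perfect {G T : Type*} [Group G] [Group T] [IsSimpleGroup T] (π : G →* T)
    (hπ : Function.Surjective π) (hp : ⁅(⊤ : Subgroup G), (⊤ : Subgroup G)⁆ = ⊤) : ∃ a b : T, a * b ≠ b * a := by
  by_contra hcon
  push Not at hcon
  have h1 : ∀ x : T, x = 1 := by
    intro x
    obtain ⟨g, rfl⟩ := hπ x
    have h2 : (⊤ : Subgroup G) ≤ π.ker := by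
      rw [← hp, Subgroup.commutator_le]
      intro a _ b _
      rw [MonoidHom.mem_ker, map_commutatorElement, commutatorElement_eq_one_iff_mul_comm]
      exact hcon _ _
    exact h2 (Subgroup.mem_top g)
  obtain ⟨x, hx⟩ := exists_ne (1 : T)
  exact hx (h1 x)

theorem two_ne_zero_of_odd {F : Type*} [Field F] [Fintype F] (ho : Odd (Fintype.card F)) : (2 : F) ≠ 0 := by
  intro h2
  have hchar : CharP F 2 := by
    have h3 : (2 : ℕ) ∣ Fintype.card F := by
      have h4 : ringChar F = 2 := by
        have h5 : ((2 : ℕ) : F) = 0 := by exact_mod_cast h2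
        have h6 := (ringChar.spec F 2).1 h5
        rcases (Nat.dvd_prime Nat.prime_two).1 h6 with h7 | h7
        · exfalso
          have h8 := ringChar.Nat.cast_ringChar (R := F)
          rw [h7, Nat.cast_one] at h8
          exact one_ne_zero h8
        · exact h7
      have h5 := FiniteField.card F (ringChar F)
      obtain ⟨n, -, h6⟩ := h5
      rw [h6, h4]
      exact dvd_pow_self 2 n.2.ne'
    exact absurd ho (Nat.not_odd_iff_even.2 (even_iff_two_dvd.2 h3))
  exact absurd ho (by
    have h3 := FiniteField.even_card_of_char_two (F := F) (by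
      have := ringChar.eq F 2
      exact this)
    exact Nat.not_odd_iff_even.2 (Nat.even_iff.2 h3))

theorem killE_model (H : RowThm) {ι : Type} [Fintype ι] [DecidableEq ι] {F : Type} [Field F] [Fintype F]
    (ho : Odd (Fintype.card F)) (Q : QuadraticForm F (ι → F)) (hQ : Nondeg Q) (h11 : 11 ≤ Fintype.card ι)
    (hs : IsSimpleGroup (POmega F ⇑Q)) : KillE (POmega F ⇑Q) := by
  have hfr : finrank F (ι → F) = Fintype.card ι := Module.finrank_pi F
  have hG : Good Q := good_of_finite hQ (by rw [hfr]; omega)
  have hfin : Finite (POmega F ⇑Q) := Quotient.finite _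
  refine H F (ι → F) Q (two_ne_zero_of_odd ho) hQ (by rw [hfr]; exact h11) _ (omHom hG) (omHom_surjective hG) ?_ ?_
  · intro g hg
    exact center_scalar hG (by rw [← omHom_ker hG]; exact hg)
  · refine not_comm_of_perfect (omHom hG) (omHom_surjective hG) ?_
    have h1 := hG.E_perfect
    have h2 := congrArg (fun K => Subgroup.comap (E Q).subtype K) h1
    apply Subgroup.map_injective (Subgroup.subtype_injective (E Q))
    rw [Subgroup.map_commutator, ← MonoidHom.range_eq_map, Subgroup.range_subtype]
    exact h1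

theorem odd_of (H : RowThm) (F : Type) [Field F] [Fintype F] (m : ℕ) (ho : Odd (Fintype.card F)) (hm : 5 ≤ m)
    (hs : IsSimpleGroup (POmega F (quadFormOdd m F))) : KillE (POmega F (quadFormOdd m F)) := by
  rw [← coe_oddForm] at hs ⊢
  exact killE_model H ho _ (nondeg_oddForm m F (two_ne_zero_of_odd ho)) (by simp; omega) hs

theorem plus_of (H : RowThm) (F : Type) [Field F] [Fintype F] (m : ℕ) (ho : Odd (Fintype.card F)) (hm : 6 ≤ m)
    (hs : IsSimpleGroup (POmega F (quadFormPlus m F))) : KillE (POmega F (quadFormPlus m F)) := by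
  rw [← coe_plusForm] at hs ⊢
  exact killE_model H ho _ (nondeg_plusForm m F) (by simp; omega) hs

theorem minus_of (H : RowThm) (F : Type) [Field F] [Fintype F] (m : ℕ) (a b : F) (ho : Odd (Fintype.card F))
    (hm : 6 ≤ m) (hz : ∀ z₁ z₂ : F, z₁ ^ 2 + a * z₁ * z₂ + b * z₂ ^ 2 = 0 → z₁ = 0 ∧ z₂ = 0)
    (hs : IsSimpleGroup (POmega F (quadFormMinus (m - 1) F a b))) :
    KillE (POmega F (quadFormMinus (m - 1) F a b)) := by
  rw [← coe_minusForm] at hs ⊢
  exact killE_model H ho _ (nondeg_minusForm (m - 1) F a b hz) (by simp; omega) hs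

end Cfsg.Agent.H254.IF
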